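import Cfsg.Agent.H511.EP.SUC5b

/-!
# S3499-III-SU-C5 (helper511): the subfield subgroups of the special unitary groups
-/

set_option autoImplicit false
set_option linter.unusedSectionVars false
set_option linter.unusedSimpArgs false

namespace Cfsg.Agent.H511.EP

open Subgroup Cfsg Cfsg.Geo Cfsg.Agent.H284 Cfsg.Agent.H419.EP Cfsg.Agent.LieClassical.HermBasic
open scoped Matrix MatrixGroups

variable {Q : Type*} [Group Q] [Finite Q] {A : Subgroup Q} {Γ : Subgroup (MulAut Q)} (h : EPT A Γ)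
variable {F : Type*} [Field F] [Fintype F] {n q : ℕ} (m : Model Q (GU n F q ⊓ Geo.specialLinear (Fin n) F))
variable {F₀ : Subfield F} {P : GL (Fin n) F}

include h

/-- the criterion in terms of matrices -/
theorem kill_mat {φ : F →+* F} (hφ : ∀ a, a ∈ F₀ ↔ φ a = a) (hA : m.hat A ≤ subfieldSubgroup F₀ P)
    {X Y G : Matrix (Fin n) (Fin n) F} (hXY : X * Y = 1) (hYX : Y * X = 1) (haX : IsAdj q X Y) (hdX : X.det = 1)
    (hGG : G * G = 1) (haG : IsAdj q G G) (hdG : G.det = 1) (hGX : G * X = Y * G) (hG : PhiM φ P G = G)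
    (hc : PhiM φ P X * X = X * PhiM φ P X) (hx2 : ∀ d : F, PhiM φ P (X * X) = d • (X * X) → False) : False := by
  have hx : (⟨X, Y, hXY, hYX⟩ : GL (Fin n) F) ∈ GU n F q ⊓ specialLinear (Fin n) F := mem_of_adj rfl haX hYX hdX
  have hg : (⟨G, G, hGG, hGG⟩ : GL (Fin n) F) ∈ GU n F q ⊓ specialLinear (Fin n) F := mem_of_adj rfl haG hGG hdG
  refine H96.C5.kill_subfield h m hφ hA hx hg ?_ ?_ ?_ ?_
  · rw [H96.C5.mem_iff hφ]
    refine ⟨1, Subgroup.one_mem _, ?_⟩
    rw [mul_one]
    apply Units.ext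
    rw [coe_Phi]
    exact hG
  · rw [mul_inv_eq_iff_eq_mul]
    apply Units.ext
    exact hGX
  · apply Units.ext
    rw [Units.val_mul, Units.val_mul, coe_Phi]
    exact hc
  · intro hmem
    rw [H96.C5.mem_iff hφ] at hmem
    obtain ⟨z, hz, e⟩ := hmem
    obtain ⟨d, hd⟩ := (mem_scalars_iff z).1 hz
    apply hx2 (d : F)
    have e' := congrArg (fun t : GL (Fin n) F => (t : Matrix (Fin n) (Fin n) F)) e
    simp only [coe_Phi, Units.val_mul, hd] at e'
    rw [mul_smul_comm, mul_one] at e'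
    exact e'

/-- **(a)**: `F₀` of odd prime index -/
theorem su_C5a (hF : Fintype.card F = q ^ 2) (hn : 3 ≤ n) {r : ℕ} (hr : r.Prime) (hr2 : Odd r)
    (hF₀ : Fintype.card F = Nat.card F₀ ^ r) (hform : IsFormRationalStructure (hermForm n F q) F₀ 1 P)
    (hA : m.hat A ≤ subfieldSubgroup F₀ P) : False := by
  obtain ⟨φ, hφ⟩ := H96.C5.exists_phi F₀
  set s := Nat.card F₀ with hs
  have hs2 : 2 ≤ s := by
    exact Finite.one_lt_card
  obtain ⟨t, ht⟩ := sq_of_odd hr2 (hF.symm.trans hF₀) (by omega)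
  have ht2 : 2 ≤ t := by
    by_contra hlt
    have : t = 0 ∨ t = 1 := by omega
    rcases this with h0 | h0 <;> rw [ht, h0] at hs2 <;> norm_num at hs2
  have hr3 : 3 ≤ r := by
    rcases hr2 with ⟨k, hk⟩
    have := hr.two_le
    omega
  have hs4 : 4 ≤ s := by rw [ht]; nlinarith
  have hq2 : 2 ≤ q := two_le hF
  have hqs : 2 * s ≤ q := by
    have h1 : s ^ 3 ≤ q ^ 2 := by
      rw [← hF, hF₀]
      exact Nat.pow_le_pow_right (by omega) hr3
    have h2 : (2 * s) ^ 2 ≤ q ^ 2 := by
      calc (2 * s) ^ 2 = 4 * s ^ 2 := by ring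
        _ ≤ s * s ^ 2 := Nat.mul_le_mul_right _ hs4
        _ = s ^ 3 := by ring
        _ ≤ _ := h1
    exact (Nat.pow_le_pow_iff_left (by norm_num)).1 h2
  -- the trace condition
  have hl : ∃ l : F, l ∈ F₀ ∧ l + l ^ q ≠ 0 := by
    by_cases h2 : (2 : F) = 0
    · by_contra hcon
      push Not at hcon
      let K : Subfield F := RingHom.eqLocusField (conj hF : F →+* F) (RingHom.id F)
      have hle : F₀ ≤ K := by
        intro l hl
        have h3 := hcon l hl
        show l ^ q = l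
        linear_combination h3 - h2 * l
      have hK : Nat.card K = q := card_fixed hF
      let _ : Algebra F₀ K := (Subfield.inclusion hle).toAlgebra
      have : Fintype K := Fintype.ofFinite K
      have : Fintype F₀ := Fintype.ofFinite F₀
      have h3 := Module.card_eq_pow_finrank (K := F₀) (V := K)
      rw [← Nat.card_eq_fintype_card, ← Nat.card_eq_fintype_card, hK, ← hs] at h3
      have h4 : s ^ r = s ^ (2 * Module.finrank F₀ K) := by
        rw [← hF₀, hF, h3, ← pow_mul, mul_comm]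
      have h5 := Nat.pow_right_injective hs2 h4
      rcases hr2 with ⟨k, hk⟩
      omega
    · refine ⟨1, F₀.one_mem, ?_⟩
      rw [one_pow]
      intro h3
      apply h2
      linear_combination h3
  -- the multiplier
  obtain ⟨c, hc0, hcq, hc2⟩ : ∃ c : F, c ≠ 0 ∧ c ^ q = c ∧ c ^ 2 ∉ F₀ := by
    obtain ⟨g, hg⟩ := IsCyclic.exists_generator (α := Fˣ)
    have ho : orderOf g = q ^ 2 - 1 := by
      classical
      rw [orderOf_eq_card_of_forall_mem_zpowers hg, Nat.card_eq_fintype_card, Fintype.card_units, hF]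
    have hgF : (g : F) ^ (q ^ 2) = g := by
      rw [← hF]
      exact FiniteField.pow_card _
    refine ⟨(g : F) ^ (q + 1), pow_ne_zero _ g.ne_zero, ?_, ?_⟩
    · calc ((g : F) ^ (q + 1)) ^ q = (g : F) ^ (q ^ 2) * (g : F) ^ q := by rw [← pow_mul, ← pow_add]; congr 1; ring
        _ = (g : F) ^ (q + 1) := by rw [hgF, pow_succ, mul_comm]
    · intro hmem
      rw [H914.mem_subfield_iff_pow, ← hs] at hmem
      have h1 : g ^ (2 * (q + 1) * (s - 1)) = 1 := by
        have h2 : g ^ (2 * (q + 1) * (s - 1)) * g ^ (2 * (q + 1)) = g ^ (2 * (q + 1)) := by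
          rw [← pow_add]
          apply Units.ext
          push_cast
          have e : 2 * (q + 1) * (s - 1) + 2 * (q + 1) = (q + 1) * 2 * s := by
            obtain ⟨s', hs'⟩ : ∃ s', s = s' + 1 := ⟨s - 1, by omega⟩
            rw [hs']
            simp only [Nat.add_sub_cancel]
            ring
          rw [e, pow_mul, pow_mul, hmem, ← pow_mul]
          congr 1
          ring
        exact mul_eq_right.1 h2
      have h3 := Nat.le_of_dvd (by
        have : 0 < s - 1 := by omega
        positivity) (orderOf_dvd_of_pow_eq_one h1)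
      rw [ho] at h3
      obtain ⟨a, ha⟩ : ∃ a, q = a + 1 := ⟨q - 1, by omega⟩
      obtain ⟨b, hb⟩ : ∃ b, s = b + 1 := ⟨s - 1, by omega⟩
      have e1 : q ^ 2 - 1 = (q + 1) * a := by
        rw [ha]
        have : (a + 1) ^ 2 = (a + 1 + 1) * a + 1 := by ring
        rw [this]; rfl
      rw [e1, hb, Nat.add_sub_cancel, mul_comm 2, mul_assoc] at h3
      have h4 := Nat.le_of_mul_le_mul_left h3 (by omega)
      omega
  obtain ⟨v, w, e, hv, hw, he, fvv, fww, fvw, fev, few, fee⟩ := exists_vwe hF hn hform hl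
  have fwv : hermForm n F q w v = 1 := by rw [herm_swap hF v w, fvw, one_pow]
  have fve := herm_eq_zero_swap hF fev
  have fwe := herm_eq_zero_swap hF few
  have hE := fun {a b : Fin n → F} (ha : Rt F₀ P a) (hb : Rt F₀ P b) => E_rat (q := q) hφ hform ha hb
  have cc : c * c⁻¹ = 1 := mul_inv_cancel₀ hc0
  have ciq : (c⁻¹) ^ q = c⁻¹ := by rw [inv_pow, hcq]
  set ε := hermForm n F q e e with hε
  have kε : ε ^ q = ε := herm_self_pow hF e
  have εε : ε * ε⁻¹ = 1 := mul_inv_cancel₀ fee
  have εi : (ε⁻¹) ^ q = ε⁻¹ := by rw [inv_pow, kε]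
  have hεm : φ ε = ε := (hφ _).1 (form_mem1 hform he he)
  have twoq : (2 : F) ^ q = 2 := by
    have : (2 : F) = 1 + 1 := by norm_num
    rw [this, add_pow_q hF, one_pow]
  refine kill_mat h m hφ hA (X := 1 + (c - 1) • E q v w + (c⁻¹ - 1) • E q w v)
    (Y := 1 + (c⁻¹ - 1) • E q v w + (c - 1) • E q w v)
    (G := 1 + (E q v v - E q v w - E q w v + E q w w) + (-(2 * ε⁻¹)) • E q e e) ?_ ?_ ?_ ?_ ?_ ?_ ?_ ?_ ?_ ?_ ?_
  · simp only [mul_add, add_mul, mul_one, one_mul, smul_mul_assoc, mul_smul_comm, E_mul, fvv, fww, fvw, fwv, zero_smul,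
      smul_zero, one_smul, smul_smul]
    match_scalars
    · ring
    · linear_combination cc
    · linear_combination cc
  · simp only [mul_add, add_mul, mul_one, one_mul, smul_mul_assoc, mul_smul_comm, E_mul, fvv, fww, fvw, fwv, zero_smul,
      smul_zero, one_smul, smul_smul]
    match_scalars
    · ring
    · linear_combination cc
    · linear_combination cc
  · have h1 := ((IsAdj.one (q := q)).add hF (IsAdj.E hF (c - 1) v w)).add hF (IsAdj.E hF (c⁻¹ - 1) w v)
    rw [sub_pow_q hF, hcq, one_pow, sub_pow_q hF, ciq, one_pow] at h1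
    convert h1 using 1
    module
  · have e1 : 1 + (c - 1) • E q v w + (c⁻¹ - 1) • E q w v = (1 + (c - 1) • E q v w) * (1 + (c⁻¹ - 1) • E q w v) := by
      simp only [mul_add, add_mul, mul_one, one_mul, smul_mul_assoc, mul_smul_comm, E_mul, fww, zero_smul, smul_zero]
      module
    rw [e1, Matrix.det_mul, det_one_add_E, det_one_add_E, fvw, fwv]
    linear_combination cc
  · simp only [mul_add, add_mul, mul_sub, sub_mul, mul_one, one_mul, smul_mul_assoc, mul_smul_comm, E_mul, fvv, fww, fvw,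
      fwv, fev, few, fve, fwe, zero_smul, smul_zero, one_smul, smul_smul, ← hε]
    match_scalars
    all_goals try linear_combination 4 * ε⁻¹ * εε
    all_goals ring
  · have h1 := ((IsAdj.one (q := q)).add hF ((((IsAdj.E hF 1 v v).add hF (IsAdj.E hF (-1) v w)).add hF
      (IsAdj.E hF (-1) w v)).add hF (IsAdj.E hF 1 w w))).add hF (IsAdj.E hF (-(2 * ε⁻¹)) e e)
    rw [one_pow, neg_pow_q hF, one_pow, neg_pow_q hF, mul_pow, twoq, εi] at h1
    convert h1 using 1 <;> module
  · have e1 : 1 + (E q v v - E q v w - E q w v + E q w w) + (-(2 * ε⁻¹)) • E q e e =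
        (1 + (1 : F) • E q (v - w) (v - w)) * (1 + (-(2 * ε⁻¹)) • E q e e) := by
      simp only [mul_add, add_mul, mul_sub, sub_mul, mul_one, one_mul, smul_mul_assoc, mul_smul_comm, E_mul, fww, fev,
        few, zero_smul, smul_zero, E_sub_left hF, E_sub_right hF]
      module
    rw [e1, Matrix.det_mul, det_one_add_E, det_one_add_E, ← hε, herm_sub_left, herm_sub_right hF, herm_sub_right hF, fvw,
      fwv, fvv, fww]
    linear_combination 2 * εε
  · simp only [mul_add, add_mul, mul_sub, sub_mul, mul_one, one_mul, smul_mul_assoc, mul_smul_comm, E_mul, fvv, fww, fvw,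
      fwv, fev, few, fve, fwe, zero_smul, smul_zero, one_smul, smul_smul, ← hε]
    module
  · simp only [map_add, map_sub, map_one, PhiM_smul, hE hv hv, hE hv hw, hE hw hv, hE hw hw, hE he he, map_neg, map_mul,
      map_inv₀, hεm, map_ofNat]
  · simp only [map_add, map_sub, map_one, PhiM_smul, hE hv hv, hE hv hw, hE hw hv, hE hw hw, hE he he, map_neg, map_mul,
      map_inv₀, hεm, map_ofNat, mul_add, add_mul, mul_sub, sub_mul, mul_one, one_mul, smul_mul_assoc, mul_smul_comm,
      E_mul, fvv, fww, fvw, fwv, fev, few, fve, fwe, zero_smul, smul_zero, one_smul, smul_smul]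
    module
  · intro d hd
    have e0 : e ≠ 0 := by
      rintro rfl
      exact fee (herm_zero_left _)
    have v0 : v ≠ 0 := by
      rintro rfl
      rw [herm_zero_left] at fvw
      exact zero_ne_one fvw
    have h1 := congrArg (fun M => M *ᵥ e) hd
    have h2 := congrArg (fun M => M *ᵥ v) hd
    simp only [map_mul, map_add, map_sub, map_one, PhiM_smul, hE hv hw, hE hw hv, Matrix.smul_mulVec,
      ← Matrix.mulVec_mulVec, Matrix.add_mulVec, Matrix.one_mulVec, E_mulVec, Matrix.mulVec_add, Matrix.mulVec_smul,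
      fev, few, fve, fwe, fvv, fww, fvw, fwv, zero_smul, smul_zero, add_zero, one_smul] at h1 h2
    have hd1 : d = 1 := by
      by_contra hne
      apply e0
      have : (1 - d) • e = 0 := by rw [sub_smul, one_smul, ← h1, sub_self]
      exact (smul_eq_zero.1 this).resolve_left (fun h => hne (sub_eq_zero.1 h).symm)
    rw [hd1] at h2
    have h3 : (φ (c ^ 2) - c ^ 2) • v = 0 := by
      rw [map_pow, ← sub_eq_zero.2 h2]
      module
    have h4 := (smul_eq_zero.1 h3).resolve_right v0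
    exact hc2 ((hφ _).2 (sub_eq_zero.1 h4))

/-- **(b)**: `q` odd, `F₀` of index 2, orthogonal type -/
theorem su_C5b (hF : Fintype.card F = q ^ 2) (hn : 3 ≤ n) (hq : Odd q)
    (hF₀ : Fintype.card F = Nat.card F₀ ^ 2) (hform : IsFormRationalStructure (hermForm n F q) F₀ 1 P)
    (hA : m.hat A ≤ subfieldSubgroup F₀ P) : False := by
  have hs : Nat.card F₀ = q := by
    rw [hF] at hF₀
    exact (Nat.pow_left_injective two_ne_zero hF₀).symm
  have h2 := two_ne hF hq
  have hφ : ∀ a, a ∈ F₀ ↔ (conj hF : F →+* F) a = a := by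
    intro a
    rw [H914.mem_subfield_iff_pow, hs]
    rfl
  have hφq : ∀ a, (conj hF : F →+* F) a = a ^ q := fun a => rfl
  obtain ⟨φ, hφe⟩ : ∃ φ : F →+* F, φ = (conj hF : F →+* F) := ⟨_, rfl⟩
  rw [← hφe] at hφ hφq
  have hl : ∃ l : F, l ∈ F₀ ∧ l + l ^ q ≠ 0 := by
    refine ⟨1, F₀.one_mem, ?_⟩
    rw [one_pow]
    intro h3
    apply h2
    linear_combination h3
  obtain ⟨c, hc0, hcc⟩ := exists_trace_zero_ne hF
  have hcq : c ^ q = -c := by linear_combination hcc
  obtain ⟨v, w, e, hv, hw, he, fvv, fww, fvw, fev, few, fee⟩ := exists_vwe hF hn hform hl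
  have fwv : hermForm n F q w v = 1 := by rw [herm_swap hF v w, fvw, one_pow]
  have fve := herm_eq_zero_swap hF fev
  have fwe := herm_eq_zero_swap hF few
  have hE := fun {a b : Fin n → F} (ha : Rt F₀ P a) (hb : Rt F₀ P b) => E_rat (q := q) hφ hform ha hb
  set ε := hermForm n F q e e with hε
  have kε : ε ^ q = ε := herm_self_pow hF e
  have hεm : φ ε = ε := (hφ _).1 (form_mem1 hform he he)
  have hcm : φ c = -c := (hφq c).trans hcq
  have twoq : (2 : F) ^ q = 2 := by
    have : (2 : F) = 1 + 1 := by norm_num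
    rw [this, add_pow_q hF, one_pow]
  have h22 : (2 : F) * 2⁻¹ = 1 := mul_inv_cancel₀ h2
  have twoi : ((2 : F)⁻¹) ^ q = 2⁻¹ := by rw [inv_pow, twoq]
  refine kill_mat h m hφ hA (X := 1 + c • E q e v + c • E q v e + (c * c * ε * 2⁻¹) • E q v v)
    (Y := 1 + (-c) • E q e v + (-c) • E q v e + (c * c * ε * 2⁻¹) • E q v v)
    (G := 1 + (-2 : F) • E q v w + (-2 : F) • E q w v) ?_ ?_ ?_ ?_ ?_ ?_ ?_ ?_ ?_ ?_ ?_
  · simp only [mul_add, add_mul, mul_one, one_mul, smul_mul_assoc, mul_smul_comm, E_mul, fvv, fev, fve, ← hε, zero_smul,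
      smul_zero, one_smul, smul_smul]
    match_scalars
    · ring
    · ring
    · ring
    · linear_combination (c * c * ε) * h22
  · simp only [mul_add, add_mul, mul_one, one_mul, smul_mul_assoc, mul_smul_comm, E_mul, fvv, fev, fve, ← hε, zero_smul,
      smul_zero, one_smul, smul_smul]
    match_scalars
    · ring
    · ring
    · ring
    · linear_combination (c * c * ε) * h22
  · have h1 := (((IsAdj.one (q := q)).add hF (IsAdj.E hF c e v)).add hF (IsAdj.E hF c v e)).add hF
      (IsAdj.E hF (c * c * ε * 2⁻¹) v v)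
    rw [mul_pow, mul_pow, mul_pow, hcq, kε, twoi] at h1
    convert h1 using 1
    module
  · have e1 : 1 + c • E q e v + c • E q v e + (c * c * ε * 2⁻¹) • E q v v =
        (1 + c • E q e v) * (1 + c • E q v e) * (1 + (c * c * ε * 2⁻¹) • E q v v) := by
      simp only [mul_add, add_mul, mul_one, one_mul, smul_mul_assoc, mul_smul_comm, E_mul, fvv, fve, zero_smul, smul_zero,
        mul_zero, zero_mul]
      module
    rw [e1, Matrix.det_mul, Matrix.det_mul, det_one_add_E, det_one_add_E, det_one_add_E, fev, fve, fvv]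
    ring
  · simp only [mul_add, add_mul, mul_one, one_mul, smul_mul_assoc, mul_smul_comm, E_mul, fvv, fww, fvw, fwv, zero_smul,
      smul_zero, one_smul, smul_smul]
    module
  · have h1 := ((IsAdj.one (q := q)).add hF (IsAdj.E hF (-2) v w)).add hF (IsAdj.E hF (-2) w v)
    rw [neg_pow_q hF, twoq] at h1
    convert h1 using 1
    module
  · have e1 : 1 + (-2 : F) • E q v w + (-2 : F) • E q w v = (1 + (-2 : F) • E q v w) * (1 + (-2 : F) • E q w v) := by
      simp only [mul_add, add_mul, mul_one, one_mul, smul_mul_assoc, mul_smul_comm, E_mul, fww, zero_smul, smul_zero]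
      module
    rw [e1, Matrix.det_mul, det_one_add_E, det_one_add_E, fvw, fwv]
    norm_num
  · simp only [mul_add, add_mul, mul_one, one_mul, smul_mul_assoc, mul_smul_comm, E_mul, fvv, fww, fvw, fwv, fev, few,
      fve, fwe, zero_smul, smul_zero, one_smul, smul_smul]
    module
  · simp only [map_add, map_one, PhiM_smul, hE hv hw, hE hw hv, map_neg, map_ofNat]
  · simp only [map_add, map_one, PhiM_smul, hE he hv, hE hv he, hE hv hv, hcm, hεm, map_mul, map_inv₀, map_ofNat,
      mul_add, add_mul, mul_one, one_mul, smul_mul_assoc, mul_smul_comm, E_mul, fvv, fev, fve, ← hε, zero_smul,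
      smul_zero, one_smul, smul_smul]
    module
  · intro d hd
    have h1 := congrArg (fun M => M *ᵥ v) hd
    have h3 := congrArg (fun M => hermForm n F q (M *ᵥ w) e) hd
    simp only [map_mul, map_add, map_one, PhiM_smul, hE he hv, hE hv he, hE hv hv, hcm, hεm, map_inv₀, map_ofNat,
      Matrix.smul_mulVec, ← Matrix.mulVec_mulVec, Matrix.add_mulVec, Matrix.one_mulVec, E_mulVec, Matrix.mulVec_add,
      Matrix.mulVec_smul, fev, few, fve, fwe, fvv, fww, fvw, fwv, ← hε, zero_smul, smul_zero, add_zero, one_smul,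
      herm_add_left, herm_smul_left, mul_zero, zero_add, mul_one] at h1 h3
    have v0 : v ≠ 0 := by
      rintro rfl
      rw [herm_zero_left] at fvw
      exact zero_ne_one fvw
    have hd1 : d = 1 := by
      by_contra hne
      apply v0
      have : (1 - d) • v = 0 := by rw [sub_smul, one_smul, ← h1, sub_self]
      exact (smul_eq_zero.1 this).resolve_left (fun h => hne (sub_eq_zero.1 h).symm)
    rw [hd1] at h3
    have h4 : 2 * (2 * (c * ε)) = 0 := by linear_combination -h3
    exact mul_ne_zero h2 (mul_ne_zero h2 (mul_ne_zero hc0 fee)) h4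

/-- **(c)**, `q` odd: `F₀` of index 2, symplectic type -/
theorem su_C5c_odd (hF : Fintype.card F = q ^ 2) (hn : 3 ≤ n) (hq : Odd q)
    (hF₀ : Fintype.card F = Nat.card F₀ ^ 2) {ζ : F} (hζ : ζ ≠ 0) (hζq : ζ + ζ ^ q = 0)
    (hform : IsFormRationalStructure (hermForm n F q) F₀ ζ P)
    (halt : ∀ u, Rt F₀ P u → hermForm n F q u u = 0)
    (hA : m.hat A ≤ subfieldSubgroup F₀ P) : False := by
  have hs : Nat.card F₀ = q := by
    rw [hF] at hF₀
    exact (Nat.pow_left_injective two_ne_zero hF₀).symm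
  have h2 := two_ne hF hq
  have hφ : ∀ a, a ∈ F₀ ↔ (conj hF : F →+* F) a = a := by
    intro a
    rw [H914.mem_subfield_iff_pow, hs]
    rfl
  have hφq : ∀ a, (conj hF : F →+* F) a = a ^ q := fun a => rfl
  obtain ⟨φ, hφe⟩ : ∃ φ : F →+* F, φ = (conj hF : F →+* F) := ⟨_, rfl⟩
  rw [← hφe] at hφ hφq
  have hzq : ζ ^ q = -ζ := by linear_combination hζq
  obtain ⟨v, w, e, hv, hw, he, fvw, e0, fev, few⟩ := exists_c hF hn hζ hform (fun a ha => by rw [← hφq]; exact (hφ a).1 ha)
  have hφz : φ ζ = -ζ := (hφq ζ).trans hzq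
  have fvv := halt v hv
  have fww := halt w hw
  have fee := halt e he
  have fve := herm_eq_zero_swap hF fev
  have fwe := herm_eq_zero_swap hF few
  have fwv : ζ * hermForm n F q w v = -1 := by
    have h1 := congrArg (fun t => t ^ q) fvw
    simp only [mul_pow, one_pow, hzq, ← herm_swap hF v w] at h1
    linear_combination -h1
  have hE := fun {a b : Fin n → F} (ha : Rt F₀ P a) (hb : Rt F₀ P b) => PhiM_E (q := q) hφ hform ha hb
  have hE2 : ∀ {a b : Fin n → F} (ha : Rt F₀ P a) (hb : Rt F₀ P b), PhiM φ P (E q a b) = -E q a b := by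
    intro a b ha hb
    have h1 := hE ha hb
    rw [PhiM_smul, hφq, hzq, neg_smul, neg_eq_iff_eq_neg, ← smul_neg] at h1
    exact smul_right_injective _ hζ h1
  have twoq : (2 : F) ^ q = 2 := by
    have : (2 : F) = 1 + 1 := by norm_num
    rw [this, add_pow_q hF, one_pow]
  refine kill_mat h m hφ hA (X := 1 + (1 : F) • E q e v + (-1 : F) • E q v e)
    (Y := 1 + (-1 : F) • E q e v + (1 : F) • E q v e)
    (G := 1 + (-2 * ζ) • E q v w + (2 * ζ) • E q w v) ?_ ?_ ?_ ?_ ?_ ?_ ?_ ?_ ?_ ?_ ?_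
  · simp only [mul_add, add_mul, mul_one, one_mul, smul_mul_assoc, mul_smul_comm, E_mul, fvv, fev, fve, fee, zero_smul,
      smul_zero, one_smul, smul_smul]
    module
  · simp only [mul_add, add_mul, mul_one, one_mul, smul_mul_assoc, mul_smul_comm, E_mul, fvv, fev, fve, fee, zero_smul,
      smul_zero, one_smul, smul_smul]
    module
  · have h1 := ((IsAdj.one (q := q)).add hF (IsAdj.E hF 1 e v)).add hF (IsAdj.E hF (-1) v e)
    rw [neg_pow_q hF, one_pow] at h1
    convert h1 using 1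
    module
  · have e1 : 1 + (1 : F) • E q e v + (-1 : F) • E q v e = (1 + (1 : F) • E q e v) * (1 + (-1 : F) • E q v e) := by
      simp only [mul_add, add_mul, mul_one, one_mul, smul_mul_assoc, mul_smul_comm, E_mul, fvv, zero_smul, smul_zero]
      module
    rw [e1, Matrix.det_mul, det_one_add_E, det_one_add_E, fev, fve]
    ring
  · simp only [mul_add, add_mul, mul_one, one_mul, smul_mul_assoc, mul_smul_comm, E_mul, fvv, fww, zero_smul,
      smul_zero, one_smul, smul_smul]
    match_scalars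
    · ring
    · linear_combination (4 * ζ) * fvw
    · linear_combination (4 * ζ) * fwv
  · have h1 := ((IsAdj.one (q := q)).add hF (IsAdj.E hF (-2 * ζ) v w)).add hF (IsAdj.E hF (2 * ζ) w v)
    rw [mul_pow, mul_pow, neg_pow_q hF, twoq, hzq] at h1
    convert h1 using 1
    module
  · have e1 : 1 + (-2 * ζ) • E q v w + (2 * ζ) • E q w v = (1 + (-2 * ζ) • E q v w) * (1 + (2 * ζ) • E q w v) := by
      simp only [mul_add, add_mul, mul_one, one_mul, smul_mul_assoc, mul_smul_comm, E_mul, fww, zero_smul, smul_zero]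
      module
    rw [e1, Matrix.det_mul, det_one_add_E, det_one_add_E]
    have k1 : 1 + -2 * ζ * hermForm n F q v w = -1 := by linear_combination -2 * fvw
    have k2 : 1 + 2 * ζ * hermForm n F q w v = -1 := by linear_combination 2 * fwv
    rw [k1, k2]
    norm_num
  · simp only [mul_add, add_mul, mul_one, one_mul, smul_mul_assoc, mul_smul_comm, E_mul, fvv, fww, fev, few,
      fve, fwe, zero_smul, smul_zero, one_smul, smul_smul]
    match_scalars
    all_goals first
      | ring1
      | linear_combination 2 * fwv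
      | linear_combination 2 * fvw
  · simp only [map_add, map_one, PhiM_smul, hE2 hv hw, hE2 hw hv, map_neg, map_mul, map_ofNat, hφz]
    module
  · simp only [map_add, map_one, PhiM_smul, hE2 he hv, hE2 hv he, map_neg,
      mul_add, add_mul, mul_one, one_mul, smul_mul_assoc, mul_smul_comm, E_mul, fvv, fev, fve, fee, zero_smul,
      smul_zero, one_smul, smul_smul, mul_neg, neg_mul]
    module
  · intro d hd
    have h1 := congrArg (fun M => M *ᵥ e) hd
    have h3 := congrArg (fun M => M *ᵥ w) hd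
    simp only [map_mul, map_add, map_one, PhiM_smul, hE2 he hv, hE2 hv he, map_neg,
      Matrix.smul_mulVec, ← Matrix.mulVec_mulVec, Matrix.add_mulVec, Matrix.one_mulVec, E_mulVec, Matrix.mulVec_add,
      Matrix.mulVec_smul, Matrix.neg_mulVec, Matrix.mulVec_neg, fev, few, fve, fwe, fvv, fww, fee, zero_smul, smul_zero,
      add_zero, one_smul, neg_zero, mul_zero, zero_add, mul_one] at h1 h3
    have hd1 : d = 1 := by
      by_contra hne
      apply e0
      have : (1 - d) • e = 0 := by rw [sub_smul, one_smul, ← h1, sub_self]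
      exact (smul_eq_zero.1 this).resolve_left (fun h => hne (sub_eq_zero.1 h).symm)
    rw [hd1, ← sub_eq_zero] at h3
    have h4 : (2 * (2 * hermForm n F q w v)) • e = 0 := by
      rw [← neg_eq_zero, ← h3]
      module
    rcases smul_eq_zero.1 h4 with h5 | h5
    · have h6 : hermForm n F q w v ≠ 0 := by
        intro h7
        rw [h7, mul_zero] at fwv
        exact (neg_ne_zero.2 one_ne_zero) fwv.symm
      exact mul_ne_zero h2 (mul_ne_zero h2 h6) h5
    · exact e0 h5

/-- **(c)**, `q` even: `F₀` of index 2, symplectic type -/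
theorem su_C5c_even (hF : Fintype.card F = q ^ 2) (hn : 3 ≤ n) (hq : ¬ Odd q)
    (hF₀ : Fintype.card F = Nat.card F₀ ^ 2) {ζ : F} (hζ : ζ ≠ 0) (hζq : ζ + ζ ^ q = 0)
    (hform : IsFormRationalStructure (hermForm n F q) F₀ ζ P)
    (halt : ∀ u, Rt F₀ P u → hermForm n F q u u = 0)
    (hA : m.hat A ≤ subfieldSubgroup F₀ P) : False := by
  have hs : Nat.card F₀ = q := by
    rw [hF] at hF₀
    exact (Nat.pow_left_injective two_ne_zero hF₀).symm
  have h2 : (2 : F) = 0 := two_eq hF hq
  have hφ : ∀ a, a ∈ F₀ ↔ (conj hF : F →+* F) a = a := by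
    intro a
    rw [H914.mem_subfield_iff_pow, hs]
    rfl
  have hφq : ∀ a, (conj hF : F →+* F) a = a ^ q := fun a => rfl
  obtain ⟨φ, hφe⟩ : ∃ φ : F →+* F, φ = (conj hF : F →+* F) := ⟨_, rfl⟩
  rw [← hφe] at hφ hφq
  have hzm : ζ ∈ F₀ := by
    rw [hφ, hφq]
    linear_combination hζq - ζ * h2
  have hform1 : IsFormRationalStructure (hermForm n F q) F₀ 1 P := by
    intro u v hu hv
    have h1 := F₀.mul_mem (F₀.inv_mem hzm) (hform u v hu hv)
    rwa [inv_mul_cancel_left₀ hζ, ← one_mul (hermForm n F q _ _)] at h1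
  have hq0 : ∀ a ∈ F₀, a ^ q = a := fun a ha => by rw [← hφq]; exact (hφ a).1 ha
  obtain ⟨v, w, v', hv, hw, hv', fvw, v'0, fv'v, fv'w⟩ := exists_c hF hn one_ne_zero hform1 hq0
  rw [one_mul] at fvw
  have fwv : hermForm n F q w v = 1 := by rw [herm_swap hF v w, fvw, one_pow]
  obtain ⟨w1, hw1, fv'w1⟩ := exists_pair (P := P) (F₀ := F₀) hF v'0
  have fvv := halt v hv
  have fww := halt w hw
  have fv'v' := halt v' hv'
  have fvv' := herm_eq_zero_swap hF fv'v
  have fwv' := herm_eq_zero_swap hF fv'w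
  obtain ⟨w2, hw2⟩ : ∃ w2, w2 = w1 - (hermForm n F q w1 w • v + hermForm n F q w1 v • w) := ⟨_, rfl⟩
  have hw2r : Rt F₀ P w2 := by
    rw [hw2]
    exact hw1.sub ((hv.smul (form_mem1 hform1 hw1 hw)).add (hw.smul (form_mem1 hform1 hw1 hv)))
  have fw2v : hermForm n F q w2 v = 0 := by
    rw [hw2]
    simp only [herm_sub_left, herm_add_left, herm_smul_left, fvv, fwv]
    ring
  have fw2w : hermForm n F q w2 w = 0 := by
    rw [hw2]
    simp only [herm_sub_left, herm_add_left, herm_smul_left, fww, fvw]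
    ring
  have fv'w2 : hermForm n F q v' w2 ≠ 0 := by
    rw [hw2]
    simp only [herm_sub_right hF, herm_add_right hF, herm_smul_right, fv'v, fv'w, mul_zero, add_zero, sub_zero]
    exact fv'w1
  obtain ⟨w', hw'⟩ : ∃ w', w' = (hermForm n F q v' w2)⁻¹ • w2 := ⟨_, rfl⟩
  have hcm := F₀.inv_mem (form_mem1 hform1 hv' hw2r)
  have hw'r : Rt F₀ P w' := by
    rw [hw']
    exact hw2r.smul hcm
  have fw'v : hermForm n F q w' v = 0 := by rw [hw', herm_smul_left, fw2v, mul_zero]
  have fw'w : hermForm n F q w' w = 0 := by rw [hw', herm_smul_left, fw2w, mul_zero]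
  have fv'w' : hermForm n F q v' w' = 1 := by rw [hw', herm_smul_right, hq0 _ hcm, inv_mul_cancel₀ fv'w2]
  have fw'v' : hermForm n F q w' v' = 1 := by rw [herm_swap hF v' w', fv'w', one_pow]
  have fw'w' := halt w' hw'r
  have fvw' := herm_eq_zero_swap hF fw'v
  have fww' := herm_eq_zero_swap hF fw'w
  have hE := fun {a b : Fin n → F} (ha : Rt F₀ P a) (hb : Rt F₀ P b) => E_rat (q := q) hφ hform1 ha hb
  obtain ⟨l, hl⟩ := exists_not_fixed hF
  have hl0 : l ≠ 0 := by
    rintro rfl
    exact hl (zero_pow_q hF)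
  obtain ⟨s, hs'⟩ : ∃ s, s = l ^ q / l := ⟨_, rfl⟩
  have hs0 : s ≠ 0 := by
    rw [hs']
    exact div_ne_zero (pow_ne_zero _ hl0) hl0
  have hs1 : s ≠ 1 := by
    rw [hs']
    intro h1
    rw [div_eq_one_iff_eq hl0] at h1
    exact hl h1
  have hsq : s ^ q = s⁻¹ := by
    rw [hs', div_pow, pow_q_pow_q hF, inv_div]
  have hsiq : (s⁻¹) ^ q = s := by rw [inv_pow, hsq, inv_inv]
  have ss : s * s⁻¹ = 1 := mul_inv_cancel₀ hs0
  have hφs : φ s = s⁻¹ := (hφq s).trans hsq
  have hdd : ∀ M : Matrix (Fin n) (Fin n) F, M + M = 0 := fun M => by rw [← two_smul F M, h2, zero_smul]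
  have faa : hermForm n F q (v + v') (v + v') = 0 := by
    simp only [herm_add_left, herm_add_right hF, fvv, fvv', fv'v, fv'v', add_zero]
  have fbb : hermForm n F q (w + w') (w + w') = 0 := by
    simp only [herm_add_left, herm_add_right hF, fww, fww', fw'w, fw'w', add_zero]
  have fab : hermForm n F q (v + v') (w + w') = 0 := by
    simp only [herm_add_left, herm_add_right hF, fvw, fvw', fv'w, fv'w', add_zero, zero_add]
    linear_combination h2
  have fba := herm_eq_zero_swap hF fab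
  have hPX : PhiM φ P (1 + (s - 1) • E q v w + (s - 1) • E q w v + (s⁻¹ - 1) • E q v' w' + (s⁻¹ - 1) • E q w' v') =
      1 + (s⁻¹ - 1) • E q v w + (s⁻¹ - 1) • E q w v + (s - 1) • E q v' w' + (s - 1) • E q w' v' := by
    simp only [map_add, map_one, PhiM_smul, hE hv hw, hE hw hv, hE hv' hw'r, hE hw'r hv', map_sub, map_inv₀, hφs, inv_inv]
  have hXY : (1 + (s - 1) • E q v w + (s - 1) • E q w v + (s⁻¹ - 1) • E q v' w' + (s⁻¹ - 1) • E q w' v') *
      (1 + (s⁻¹ - 1) • E q v w + (s⁻¹ - 1) • E q w v + (s - 1) • E q v' w' + (s - 1) • E q w' v') = 1 := by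
    simp only [mul_add, add_mul, mul_one, one_mul, smul_mul_assoc, mul_smul_comm, E_mul, fvv, fww, fvw, fwv, fv'v, fv'w,
      fv'v', fvv', fwv', fw'v, fw'w, fv'w', fw'v', fw'w', fvw', fww', zero_smul, smul_zero, one_smul, smul_smul]
    match_scalars
    all_goals first
      | ring1
      | linear_combination ss
  have hYX : (1 + (s⁻¹ - 1) • E q v w + (s⁻¹ - 1) • E q w v + (s - 1) • E q v' w' + (s - 1) • E q w' v') *
      (1 + (s - 1) • E q v w + (s - 1) • E q w v + (s⁻¹ - 1) • E q v' w' + (s⁻¹ - 1) • E q w' v') = 1 := by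
    simp only [mul_add, add_mul, mul_one, one_mul, smul_mul_assoc, mul_smul_comm, E_mul, fvv, fww, fvw, fwv, fv'v, fv'w,
      fv'v', fvv', fwv', fw'v, fw'w, fv'w', fw'v', fw'w', fvw', fww', zero_smul, smul_zero, one_smul, smul_smul]
    match_scalars
    all_goals first
      | ring1
      | linear_combination ss
  refine kill_mat h m hφ hA
    (X := 1 + (s - 1) • E q v w + (s - 1) • E q w v + (s⁻¹ - 1) • E q v' w' + (s⁻¹ - 1) • E q w' v')
    (Y := 1 + (s⁻¹ - 1) • E q v w + (s⁻¹ - 1) • E q w v + (s - 1) • E q v' w' + (s - 1) • E q w' v')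
    (G := 1 + (1 : F) • E q (v + v') (w + w') + (1 : F) • E q (w + w') (v + v')) hXY hYX ?_ ?_ ?_ ?_ ?_ ?_ ?_ ?_ ?_
  · have h1 := ((((IsAdj.one (q := q)).add hF (IsAdj.E hF (s - 1) v w)).add hF (IsAdj.E hF (s - 1) w v)).add hF
      (IsAdj.E hF (s⁻¹ - 1) v' w')).add hF (IsAdj.E hF (s⁻¹ - 1) w' v')
    rw [sub_pow_q hF, hsq, one_pow, sub_pow_q hF, hsiq, one_pow] at h1
    convert h1 using 1
    module
  · have e1 : 1 + (s - 1) • E q v w + (s - 1) • E q w v + (s⁻¹ - 1) • E q v' w' + (s⁻¹ - 1) • E q w' v' =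
        (1 + (s - 1) • E q v w) * (1 + (s - 1) • E q w v) * (1 + (s⁻¹ - 1) • E q v' w') * (1 + (s⁻¹ - 1) • E q w' v') := by
      simp only [mul_add, add_mul, mul_one, one_mul, smul_mul_assoc, mul_smul_comm, E_mul, fvv, fww, fv'v, fv'w,
        fv'v', fvv', fwv', fw'v, fw'w, fw'w', fvw', fww', zero_smul, smul_zero, mul_zero, zero_mul]
      module
    rw [e1, Matrix.det_mul, Matrix.det_mul, Matrix.det_mul, det_one_add_E, det_one_add_E, det_one_add_E, det_one_add_E,
      fvw, fwv, fv'w', fw'v']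
    linear_combination (s * s⁻¹ + 1) * ss
  · simp only [mul_add, add_mul, mul_one, one_mul, E_mul, faa, fbb, fab, fba, zero_smul, one_smul, add_zero]
    calc _ = 1 + (E q (v + v') (w + w') + E q (v + v') (w + w')) + (E q (w + w') (v + v') + E q (w + w') (v + v')) := by
          abel
      _ = 1 := by rw [hdd, hdd, add_zero, add_zero]
  · have h1 := ((IsAdj.one (q := q)).add hF (IsAdj.E hF 1 (v + v') (w + w'))).add hF (IsAdj.E hF 1 (w + w') (v + v'))
    rw [one_pow] at h1
    convert h1 using 1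
    module
  · have e1 : 1 + (1 : F) • E q (v + v') (w + w') + (1 : F) • E q (w + w') (v + v') =
        (1 + (1 : F) • E q (v + v') (w + w')) * (1 + (1 : F) • E q (w + w') (v + v')) := by
      simp only [mul_add, add_mul, mul_one, one_mul, smul_mul_assoc, mul_smul_comm, E_mul, fbb, zero_smul, smul_zero]
      module
    rw [e1, Matrix.det_mul, det_one_add_E, det_one_add_E, fab, fba]
    ring
  · simp only [E_add_left hF, E_add_right hF]
    simp only [mul_add, add_mul, mul_one, one_mul, smul_mul_assoc, mul_smul_comm, E_mul, fvv, fww, fvw, fwv, fv'v, fv'w,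
      fv'v', fvv', fwv', fw'v, fw'w, fv'w', fw'v', fw'w', fvw', fww', zero_smul, smul_zero, one_smul, smul_smul, smul_add,
      add_zero, zero_add]
    match_scalars
    all_goals first
      | ring1
      | linear_combination (s - s⁻¹) * h2
      | linear_combination (s⁻¹ - s) * h2
  · simp only [E_add_left hF, E_add_right hF, smul_add, map_add, map_one, PhiM_smul, hE hv hw, hE hv hw'r, hE hv' hw, hE hv' hw'r,
      hE hw hv, hE hw hv', hE hw'r hv, hE hw'r hv']
  · rw [hPX, hXY, hYX]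
  · intro d hd
    rw [map_mul, hPX] at hd
    have h1 := congrArg (fun M => M *ᵥ v) hd
    have h3 := congrArg (fun M => M *ᵥ v') hd
    simp only [Matrix.smul_mulVec, ← Matrix.mulVec_mulVec, Matrix.add_mulVec, Matrix.one_mulVec, E_mulVec,
      Matrix.mulVec_add, Matrix.mulVec_smul, fvv, fvw, fv'v, fv'w, fv'v', fvv', fv'w', fvw', zero_smul, smul_zero,
      add_zero, one_smul] at h1 h3
    have v0 : v ≠ 0 := by
      rintro rfl
      rw [herm_zero_left] at fvw
      exact zero_ne_one fvw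
    have k1 : s⁻¹ * s⁻¹ - d * (s * s) = 0 := by
      refine (smul_eq_zero.1 (?_ : (s⁻¹ * s⁻¹ - d * (s * s)) • v = 0)).resolve_right v0
      rw [← sub_eq_zero.2 h1]
      module
    have k2 : s * s - d * (s⁻¹ * s⁻¹) = 0 := by
      refine (smul_eq_zero.1 (?_ : (s * s - d * (s⁻¹ * s⁻¹)) • v' = 0)).resolve_right v'0
      rw [← sub_eq_zero.2 h3]
      module
    have k3 : s ^ 8 = 1 := by
      have k5 : 1 - d * s ^ 4 = 0 := by linear_combination s ^ 2 * k1 - (s * s⁻¹ + 1) * ss
      have k6 : s ^ 4 - d = 0 := by linear_combination s ^ 2 * k2 + d * (s * s⁻¹ + 1) * ss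
      linear_combination s ^ 4 * k6 - k5
    have k4 : ∀ a : F, a ^ 2 = 1 → a = 1 := by
      intro a ha
      have : (a - 1) ^ 2 = 0 := by linear_combination ha + (1 - a) * h2
      exact sub_eq_zero.1 (pow_eq_zero_iff two_ne_zero |>.1 this)
    exact hs1 (k4 _ (k4 _ (k4 _ (by rw [← k3]; ring))))

/-- **(c)**: `F₀` of index 2, symplectic type -/
theorem su_C5c (hF : Fintype.card F = q ^ 2) (hn : 3 ≤ n) (hF₀ : Fintype.card F = Nat.card F₀ ^ 2) {ζ : F}
    (hζ : ζ ≠ 0) (hζq : ζ + ζ ^ q = 0) (hform : IsFormRationalStructure (hermForm n F q) F₀ ζ P)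
    (halt : ∀ u : Fin n → F, (∀ i, u i ∈ F₀) →
      hermForm n F q ((P : Matrix (Fin n) (Fin n) F) *ᵥ u) ((P : Matrix (Fin n) (Fin n) F) *ᵥ u) = 0)
    (hA : m.hat A ≤ subfieldSubgroup F₀ P) : False := by
  have halt' : ∀ u, Rt F₀ P u → hermForm n F q u u = 0 := by
    rintro _ ⟨u, hu, rfl⟩
    exact halt u hu
  by_cases hq : Odd q
  · exact su_C5c_odd h m hF hn hq hF₀ hζ hζq hform halt' hA
  · exact su_C5c_even h m hF hn hq hF₀ hζ hζq hform halt' hA

/-- **S3499-III-SU-C5**: the three subfield types of `InUnitaryPartialClass` -/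
theorem su_C5 (hF : Fintype.card F = q ^ 2) (hn : 3 ≤ n) {M : Subgroup (GL (Fin n) F)}
    (hM : (∃ (F₀ : Subfield F) (r : ℕ) (P : GL (Fin n) F), r.Prime ∧ Odd r ∧ Fintype.card F = Nat.card F₀ ^ r ∧
      IsFormRationalStructure (hermForm n F q) F₀ 1 P ∧ M = subfieldSubgroup F₀ P ⊓ GU n F q) ∨
    (∃ (F₀ : Subfield F) (P : GL (Fin n) F), Odd q ∧ Fintype.card F = Nat.card F₀ ^ 2 ∧
      IsFormRationalStructure (hermForm n F q) F₀ 1 P ∧ M = subfieldSubgroup F₀ P ⊓ GU n F q) ∨
    (∃ (F₀ : Subfield F) (P : GL (Fin n) F) (ζ : F), Even n ∧ Fintype.card F = Nat.card F₀ ^ 2 ∧ ζ ≠ 0 ∧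
      ζ + ζ ^ q = 0 ∧ IsFormRationalStructure (hermForm n F q) F₀ ζ P ∧
      (∀ u : Fin n → F, (∀ i, u i ∈ F₀) →
        hermForm n F q ((P : Matrix (Fin n) (Fin n) F) *ᵥ u) ((P : Matrix (Fin n) (Fin n) F) *ᵥ u) = 0) ∧
      M = subfieldSubgroup F₀ P ⊓ GU n F q)) (hA : m.hat A ≤ M) : False := by
  rcases hM with ⟨F₀, r, P, hr, hr2, hF₀, hform, rfl⟩ | ⟨F₀, P, hq, hF₀, hform, rfl⟩ |
    ⟨F₀, P, ζ, -, hF₀, hζ, hζq, hform, halt, rfl⟩
  · exact su_C5a h m hF hn hr hr2 hF₀ hform (hA.trans inf_le_left)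
  · exact su_C5b h m hF hn hq hF₀ hform (hA.trans inf_le_left)
  · exact su_C5c h m hF hn hF₀ hζ hζq hform halt (hA.trans inf_le_left)

end Cfsg.Agent.H511.EP
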