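import Cfsg.Agent.H96.C5.Crit
import Cfsg.Agent.LieClassical.HermBasic

/-!
# S3499-III-SU-C5, part 1 (helper511): rank one operators for the unitary form

`E a b` is the matrix of `z ↦ f(z, b) a`.
-/

set_option autoImplicit false
set_option linter.unusedSectionVars false

namespace Cfsg.Agent.H511.EP

open Subgroup Cfsg Cfsg.Geo Cfsg.Agent.LieClassical.HermBasic
open scoped Matrix MatrixGroups

section E

variable {F : Type*} [Field F] {n : ℕ}

/-- the operator `z ↦ f(z, b) a` -/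
def E (q : ℕ) (a b : Fin n → F) : Matrix (Fin n) (Fin n) F := Matrix.vecMulVec a (fun j => b j ^ q)

variable {q : ℕ}

theorem E_mulVec (a b z : Fin n → F) : E q a b *ᵥ z = hermForm n F q z b • a := by
  funext i
  rw [E, Matrix.vecMulVec_mulVec]
  show (MulOpposite.op ((fun j => b j ^ q) ⬝ᵥ z) • a) i = _
  rw [Pi.smul_apply, Pi.smul_apply, MulOpposite.smul_eq_mul_unop, MulOpposite.unop_op, smul_eq_mul, mul_comm]
  congr 1
  unfold hermForm dotProduct
  exact Finset.sum_congr rfl fun j _ => mul_comm _ _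

theorem E_mul (a b c d : Fin n → F) : E q a b * E q c d = hermForm n F q c b • E q a d := by
  ext i j
  rw [Matrix.mul_apply, Matrix.smul_apply]
  simp only [E, Matrix.vecMulVec_apply, smul_eq_mul]
  unfold hermForm
  rw [Finset.sum_mul]
  exact Finset.sum_congr rfl fun k _ => by ring

theorem det_one_add_E (c : F) (a b : Fin n → F) : (1 + c • E q a b).det = 1 + c * hermForm n F q a b := by
  have h : c • E q a b = Matrix.replicateCol Unit (c • a) * Matrix.replicateRow Unit (fun j => b j ^ q) := by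
    ext i j
    simp [E, Matrix.vecMulVec_apply, Matrix.mul_apply, mul_assoc]
  rw [h, Matrix.det_one_add_replicateCol_mul_replicateRow]
  congr 1
  unfold hermForm dotProduct
  rw [Finset.mul_sum]
  refine Finset.sum_congr rfl fun j _ => ?_
  rw [Pi.smul_apply, smul_eq_mul]
  ring

variable [Fintype F] (hF : Fintype.card F = q ^ 2)
include hF

theorem E_add_left (a a' b : Fin n → F) : E q (a + a') b = E q a b + E q a' b := by
  ext i j; simp [E, Matrix.vecMulVec_apply, add_mul]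

theorem E_add_right (a b b' : Fin n → F) : E q a (b + b') = E q a b + E q a b' := by
  ext i j; simp [E, Matrix.vecMulVec_apply, add_pow_q hF, mul_add]

theorem E_sub_left (a a' b : Fin n → F) : E q (a - a') b = E q a b - E q a' b := by
  ext i j; simp [E, Matrix.vecMulVec_apply, sub_mul]

theorem E_sub_right (a b b' : Fin n → F) : E q a (b - b') = E q a b - E q a b' := by
  ext i j; simp [E, Matrix.vecMulVec_apply, sub_pow_q hF, mul_sub]

/-- `Y` is the adjoint of `X` -/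
def IsAdj (q : ℕ) (X Y : Matrix (Fin n) (Fin n) F) : Prop :=
  ∀ u v, hermForm n F q (X *ᵥ u) v = hermForm n F q u (Y *ᵥ v)

omit hF in
theorem IsAdj.one : IsAdj q (1 : Matrix (Fin n) (Fin n) F) 1 := fun u v => by simp

theorem IsAdj.add {X Y X' Y' : Matrix (Fin n) (Fin n) F} (h : IsAdj q X Y) (h' : IsAdj q X' Y') :
    IsAdj q (X + X') (Y + Y') := fun u v => by
  rw [Matrix.add_mulVec, Matrix.add_mulVec, herm_add_left, herm_add_right hF, h, h']

theorem IsAdj.E (c : F) (a b : Fin n → F) : IsAdj q (c • EP.E q a b) (c ^ q • EP.E q b a) := fun u v => by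
  rw [Matrix.smul_mulVec, Matrix.smul_mulVec, E_mulVec, E_mulVec, herm_smul_left, herm_smul_left, herm_smul_right,
    herm_smul_right, pow_q_pow_q hF, herm_swap hF v a]
  ring

omit hF in
theorem mem_of_adj {X Y : Matrix (Fin n) (Fin n) F} {x : GL (Fin n) F} (hx : (x : Matrix (Fin n) (Fin n) F) = X)
    (hXY : IsAdj q X Y) (hYX : Y * X = 1) (hdet : X.det = 1) : x ∈ GU n F q ⊓ specialLinear (Fin n) F := by
  refine Subgroup.mem_inf.2 ⟨?_, ?_⟩
  · rw [mem_GU_iff]
    intro u v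
    rw [hx, hXY, Matrix.mulVec_mulVec, hYX, Matrix.one_mulVec]
  · show Matrix.GeneralLinearGroup.det x = 1
    apply Units.ext
    show (x : Matrix (Fin n) (Fin n) F).det = 1
    rw [hx, hdet]

end E

section Phi

variable {F : Type*} [Field F] {n : ℕ}

/-- the semilinear conjugation on matrices -/
def PhiM (φ : F →+* F) (P : GL (Fin n) F) : Matrix (Fin n) (Fin n) F →+* Matrix (Fin n) (Fin n) F where
  toFun X := (P : Matrix (Fin n) (Fin n) F) * (((P⁻¹ : GL (Fin n) F) : Matrix (Fin n) (Fin n) F) * X * P).map φ *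
    ((P⁻¹ : GL (Fin n) F) : Matrix (Fin n) (Fin n) F)
  map_one' := by
    rw [mul_one, Units.inv_mul, Matrix.map_one φ (map_zero φ) (map_one φ), mul_one, Units.mul_inv]
  map_zero' := by
    rw [mul_zero, zero_mul, Matrix.map_zero _ (map_zero φ), mul_zero, zero_mul]
  map_add' X Y := by
    rw [mul_add, add_mul, Matrix.map_add _ (map_add φ), mul_add, add_mul]
  map_mul' X Y := by
    have e : ((P⁻¹ : GL (Fin n) F) : Matrix (Fin n) (Fin n) F) * (X * Y) * P =
        (((P⁻¹ : GL (Fin n) F) : Matrix (Fin n) (Fin n) F) * X * P) *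
        (((P⁻¹ : GL (Fin n) F) : Matrix (Fin n) (Fin n) F) * Y * P) := by
      have h : (P : Matrix (Fin n) (Fin n) F) * ((P⁻¹ : GL (Fin n) F) : Matrix (Fin n) (Fin n) F) = 1 := Units.mul_inv P
      calc _ = ((P⁻¹ : GL (Fin n) F) : Matrix (Fin n) (Fin n) F) * X *
            ((P : Matrix (Fin n) (Fin n) F) * ((P⁻¹ : GL (Fin n) F) : Matrix (Fin n) (Fin n) F)) * Y * P := by
            rw [h]; noncomm_ring
        _ = _ := by noncomm_ring
    rw [e, Matrix.map_mul]
    generalize (((P⁻¹ : GL (Fin n) F) : Matrix (Fin n) (Fin n) F) * X * P).map φ = X'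
    generalize (((P⁻¹ : GL (Fin n) F) : Matrix (Fin n) (Fin n) F) * Y * P).map φ = Y'
    have h : ((P⁻¹ : GL (Fin n) F) : Matrix (Fin n) (Fin n) F) * (P : Matrix (Fin n) (Fin n) F) = 1 := Units.inv_mul P
    calc (P : Matrix (Fin n) (Fin n) F) * (X' * Y') * ((P⁻¹ : GL (Fin n) F) : Matrix (Fin n) (Fin n) F) =
          (P : Matrix (Fin n) (Fin n) F) * X' * (((P⁻¹ : GL (Fin n) F) : Matrix (Fin n) (Fin n) F) *
            (P : Matrix (Fin n) (Fin n) F)) * Y' * ((P⁻¹ : GL (Fin n) F) : Matrix (Fin n) (Fin n) F) := by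
          rw [h]; noncomm_ring
      _ = _ := by noncomm_ring

theorem PhiM_apply (φ : F →+* F) (P : GL (Fin n) F) (X : Matrix (Fin n) (Fin n) F) :
    PhiM φ P X = (P : Matrix (Fin n) (Fin n) F) *
      (((P⁻¹ : GL (Fin n) F) : Matrix (Fin n) (Fin n) F) * X * P).map φ *
      ((P⁻¹ : GL (Fin n) F) : Matrix (Fin n) (Fin n) F) := rfl

theorem coe_Phi (φ : F →+* F) (P g : GL (Fin n) F) :
    ((H96.C5.Phi φ P g : GL (Fin n) F) : Matrix (Fin n) (Fin n) F) = PhiM φ P (g : Matrix (Fin n) (Fin n) F) := by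
  rw [H96.C5.Phi_apply, PhiM_apply]
  rfl

theorem PhiM_smul (φ : F →+* F) (P : GL (Fin n) F) (c : F) (X : Matrix (Fin n) (Fin n) F) :
    PhiM φ P (c • X) = φ c • PhiM φ P X := by
  rw [PhiM_apply, PhiM_apply, mul_smul_comm, smul_mul_assoc, Matrix.map_smul' , mul_smul_comm, smul_mul_assoc]
  exact fun a b => map_mul φ a b

/-- a vector is rational if it has coordinates in `F₀` with respect to the columns of `P` -/
def Rt (F₀ : Subfield F) (P : GL (Fin n) F) (v : Fin n → F) : Prop :=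
  ∃ u : Fin n → F, (∀ i, u i ∈ F₀) ∧ v = (P : Matrix (Fin n) (Fin n) F) *ᵥ u

variable {F₀ : Subfield F} {P : GL (Fin n) F} {q : ℕ}

theorem Rt.add {v w : Fin n → F} (hv : Rt F₀ P v) (hw : Rt F₀ P w) : Rt F₀ P (v + w) := by
  obtain ⟨a, ha, rfl⟩ := hv
  obtain ⟨b, hb, rfl⟩ := hw
  exact ⟨a + b, fun i => F₀.add_mem (ha i) (hb i), (Matrix.mulVec_add _ _ _).symm⟩

theorem Rt.smul {c : F} (hc : c ∈ F₀) {v : Fin n → F} (hv : Rt F₀ P v) : Rt F₀ P (c • v) := by
  obtain ⟨a, ha, rfl⟩ := hv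
  exact ⟨c • a, fun i => F₀.mul_mem hc (ha i), (Matrix.mulVec_smul _ _ _).symm⟩

theorem Rt.neg {v : Fin n → F} (hv : Rt F₀ P v) : Rt F₀ P (-v) := by
  obtain ⟨a, ha, rfl⟩ := hv
  exact ⟨-a, fun i => F₀.neg_mem (ha i), (Matrix.mulVec_neg _ _).symm⟩

theorem Rt.sub {v w : Fin n → F} (hv : Rt F₀ P v) (hw : Rt F₀ P w) : Rt F₀ P (v - w) := by
  rw [sub_eq_add_neg]
  exact hv.add hw.neg

/-- `ζ E a b` is rational -/
theorem PhiM_E {φ : F →+* F} (hφ : ∀ a, a ∈ F₀ ↔ φ a = a) {ζ : F}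
    (hform : IsFormRationalStructure (hermForm n F q) F₀ ζ P) {a b : Fin n → F} (ha : Rt F₀ P a) (hb : Rt F₀ P b) :
    PhiM φ P (ζ • E q a b) = ζ • E q a b := by
  obtain ⟨a', ha', rfl⟩ := ha
  obtain ⟨b', hb', rfl⟩ := hb
  set X : Matrix (Fin n) (Fin n) F := ζ • E q ((P : Matrix (Fin n) (Fin n) F) *ᵥ a') ((P : Matrix (Fin n) (Fin n) F) *ᵥ b')
    with hX
  have h1 : (((P⁻¹ : GL (Fin n) F) : Matrix (Fin n) (Fin n) F) * X * P).map φ =
      ((P⁻¹ : GL (Fin n) F) : Matrix (Fin n) (Fin n) F) * X * P := by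
    ext i j
    rw [Matrix.map_apply, ← hφ]
    have e : (((P⁻¹ : GL (Fin n) F) : Matrix (Fin n) (Fin n) F) * X * (P : Matrix (Fin n) (Fin n) F)) i j =
        ((((P⁻¹ : GL (Fin n) F) : Matrix (Fin n) (Fin n) F) * X * (P : Matrix (Fin n) (Fin n) F)) *ᵥ
          (Pi.single j 1)) i := by
      rw [Matrix.mulVec_single_one]; rfl
    rw [e, ← Matrix.mulVec_mulVec, ← Matrix.mulVec_mulVec, hX, Matrix.smul_mulVec, E_mulVec, Matrix.mulVec_smul,
      Matrix.mulVec_smul, Matrix.mulVec_mulVec, Units.inv_mul, Matrix.one_mulVec, ← mul_smul, Pi.smul_apply, smul_eq_mul]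
    refine F₀.mul_mem (hform _ _ (fun i => ?_) hb') (ha' i)
    by_cases hij : i = j
    · subst hij; rw [Pi.single_eq_same]; exact F₀.one_mem
    · rw [Pi.single_eq_of_ne hij]; exact F₀.zero_mem
  rw [PhiM_apply, h1]
  have h2 : (P : Matrix (Fin n) (Fin n) F) * ((P⁻¹ : GL (Fin n) F) : Matrix (Fin n) (Fin n) F) = 1 := Units.mul_inv P
  calc (P : Matrix (Fin n) (Fin n) F) * (((P⁻¹ : GL (Fin n) F) : Matrix (Fin n) (Fin n) F) * X * P) *
        ((P⁻¹ : GL (Fin n) F) : Matrix (Fin n) (Fin n) F) =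
        ((P : Matrix (Fin n) (Fin n) F) * ((P⁻¹ : GL (Fin n) F) : Matrix (Fin n) (Fin n) F)) * X *
        ((P : Matrix (Fin n) (Fin n) F) * ((P⁻¹ : GL (Fin n) F) : Matrix (Fin n) (Fin n) F)) := by noncomm_ring
    _ = X := by rw [h2, one_mul, mul_one]

end Phi

end Cfsg.Agent.H511.EP
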