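import Cfsg.Agent.H511.EP.SUC5a

/-!
# S3499-III-SU-C5, part 2 (helper511): rational vectors
-/

set_option autoImplicit false
set_option linter.unusedSectionVars false
set_option linter.unusedSimpArgs false

namespace Cfsg.Agent.H511.EP

open Subgroup Cfsg Cfsg.Geo Cfsg.Agent.LieClassical.HermBasic
open scoped Matrix MatrixGroups

/-- Binary quadratic forms over a finite field of odd order are universal. -/
theorem exists_two_sq {K : Type*} [Field K] [Finite K] (h2 : (2 : K) ≠ 0) {a b : K} (ha : a ≠ 0) (hb : b ≠ 0) (c : K) :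
    ∃ s t : K, a * s ^ 2 + b * t ^ 2 = c := by
  have := Fintype.ofFinite K
  have hodd : Fintype.card K % 2 = 1 := FiniteField.odd_card_of_char_ne_two (by
    intro h
    apply h2
    have := ringChar.Nat.cast_ringChar (R := K)
    rw [h] at this
    exact_mod_cast this)
  obtain ⟨s, t, h⟩ := FiniteField.exists_root_sum_quadratic (f := Polynomial.C a * Polynomial.X ^ 2)
    (g := Polynomial.C b * Polynomial.X ^ 2 - Polynomial.C c)
    (Polynomial.degree_C_mul_X_pow 2 ha)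
    (by
      rw [Polynomial.degree_sub_eq_left_of_degree_lt]
      · exact Polynomial.degree_C_mul_X_pow 2 hb
      · rw [Polynomial.degree_C_mul_X_pow 2 hb]
        exact (Polynomial.degree_C_le).trans_lt (by norm_num)) hodd
  refine ⟨s, t, ?_⟩
  simp at h
  linear_combination h

variable {F : Type*} [Field F] [Fintype F] {n q : ℕ} (hF : Fintype.card F = q ^ 2)
variable {F₀ : Subfield F} {P : GL (Fin n) F}

omit [Fintype F] in
theorem form_mem {ζ : F} (hform : IsFormRationalStructure (hermForm n F q) F₀ ζ P) {a b : Fin n → F}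
    (ha : Rt F₀ P a) (hb : Rt F₀ P b) : ζ * hermForm n F q a b ∈ F₀ := by
  obtain ⟨a', ha', rfl⟩ := ha
  obtain ⟨b', hb', rfl⟩ := hb
  exact hform _ _ ha' hb'

omit [Fintype F] in
theorem form_mem1 (hform : IsFormRationalStructure (hermForm n F q) F₀ 1 P) {a b : Fin n → F}
    (ha : Rt F₀ P a) (hb : Rt F₀ P b) : hermForm n F q a b ∈ F₀ := by
  have := form_mem hform ha hb
  rwa [one_mul] at this

omit [Fintype F] in
theorem Rt_col (i : Fin n) : Rt F₀ P ((P : Matrix (Fin n) (Fin n) F) *ᵥ (Pi.single i 1)) := by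
  refine ⟨_, fun j => ?_, rfl⟩
  by_cases hij : j = i
  · subst hij; rw [Pi.single_eq_same]; exact F₀.one_mem
  · rw [Pi.single_eq_of_ne hij]; exact F₀.zero_mem

include hF

/-- the rational vectors detect zero -/
theorem exists_pair {u : Fin n → F} (hu : u ≠ 0) : ∃ w, Rt F₀ P w ∧ hermForm n F q u w ≠ 0 := by
  by_contra hcon
  push Not at hcon
  obtain ⟨v, hv⟩ := exists_herm_ne_zero hF hu
  apply hv
  have e : v = (P : Matrix (Fin n) (Fin n) F) *ᵥ (((P⁻¹ : GL (Fin n) F) : Matrix (Fin n) (Fin n) F) *ᵥ v) := by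
    rw [Matrix.mulVec_mulVec, Units.mul_inv, Matrix.one_mulVec]
  have e2 : ((P⁻¹ : GL (Fin n) F) : Matrix (Fin n) (Fin n) F) *ᵥ v =
      ∑ i, (((P⁻¹ : GL (Fin n) F) : Matrix (Fin n) (Fin n) F) *ᵥ v) i • (Pi.single i (1 : F) : Fin n → F) := by
    funext j
    rw [Finset.sum_apply]
    simp [Pi.single_apply]
  rw [e, e2, Matrix.mulVec_sum, herm_sum_right hF]
  refine Finset.sum_eq_zero fun i _ => ?_
  rw [Matrix.mulVec_smul, herm_smul_right, hcon _ (Rt_col i), mul_zero]

omit hF in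
/-- a rational vector perpendicular to given ones -/
theorem exists_perp {ζ : F} (hζ : ζ ≠ 0) (hform : IsFormRationalStructure (hermForm n F q) F₀ ζ P) {k : ℕ}
    (hk : k < n) (b : Fin k → Fin n → F) (hb : ∀ i, Rt F₀ P (b i)) :
    ∃ u, Rt F₀ P u ∧ u ≠ 0 ∧ ∀ i, hermForm n F q u (b i) = 0 := by
  have hco : ∀ (u : Fin n → F₀), Rt F₀ P ((P : Matrix (Fin n) (Fin n) F) *ᵥ (fun i => (u i : F))) :=
    fun u => ⟨_, fun i => (u i).2, rfl⟩
  let L : (Fin n → F₀) →ₗ[F₀] (Fin k → F₀) :=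
    { toFun := fun u j => ⟨ζ * hermForm n F q ((P : Matrix (Fin n) (Fin n) F) *ᵥ (fun i => (u i : F))) (b j),
        form_mem hform (hco u) (hb j)⟩
      map_add' := by
        intro u v
        funext j
        apply Subtype.ext
        have e : (fun i => ((u + v) i : F)) = (fun i => (u i : F)) + fun i => (v i : F) := rfl
        show ζ * hermForm n F q ((P : Matrix (Fin n) (Fin n) F) *ᵥ (fun i => ((u + v) i : F))) (b j) = _ + _
        rw [e, Matrix.mulVec_add, herm_add_left, mul_add]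
      map_smul' := by
        intro c u
        funext j
        apply Subtype.ext
        have e : (fun i => ((c • u) i : F)) = (c : F) • fun i => (u i : F) := rfl
        show ζ * hermForm n F q ((P : Matrix (Fin n) (Fin n) F) *ᵥ (fun i => ((c • u) i : F))) (b j) = c * _
        rw [e, Matrix.mulVec_smul, herm_smul_left]
        ring }
  have h1 : LinearMap.ker L ≠ ⊥ := LinearMap.ker_ne_bot_of_finrank_lt (by
    rw [Module.finrank_fin_fun, Module.finrank_fin_fun]; exact hk)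
  obtain ⟨u, hu, hu0⟩ := Submodule.exists_mem_ne_zero_of_ne_bot h1
  refine ⟨_, hco u, ?_, fun j => ?_⟩
  · intro h0
    apply hu0
    have h2 : (fun i => (u i : F)) = 0 := by
      have := congrArg (fun v => ((P⁻¹ : GL (Fin n) F) : Matrix (Fin n) (Fin n) F) *ᵥ v) h0
      simpa [Matrix.mulVec_mulVec] using this
    funext i
    apply Subtype.ext
    exact congrFun h2 i
  · have h2 := congrArg Subtype.val (congrFun (LinearMap.mem_ker.1 hu) j)
    exact (mul_eq_zero.1 h2).resolve_left hζ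

/-- an anisotropic rational vector perpendicular to given orthogonal anisotropic ones -/
theorem exists_aniso (hform : IsFormRationalStructure (hermForm n F q) F₀ 1 P)
    (hl : ∃ l : F, l ∈ F₀ ∧ l + l ^ q ≠ 0) {k : ℕ} (hk : k < n) (b : Fin k → Fin n → F) (hb : ∀ i, Rt F₀ P (b i))
    (hb0 : ∀ i, hermForm n F q (b i) (b i) ≠ 0) (hbb : ∀ i j, i ≠ j → hermForm n F q (b i) (b j) = 0) :
    ∃ e, Rt F₀ P e ∧ hermForm n F q e e ≠ 0 ∧ ∀ i, hermForm n F q e (b i) = 0 := by
  by_contra hcon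
  push Not at hcon
  obtain ⟨u, hu, hu0, hub⟩ := exists_perp one_ne_zero hform hk b hb
  obtain ⟨w, hw, huw⟩ := exists_pair (P := P) (F₀ := F₀) hF hu0
  obtain ⟨l, hl, hl0⟩ := hl
  obtain ⟨w', hw'⟩ : ∃ w', w' = w - ∑ i, (hermForm n F q w (b i) / hermForm n F q (b i) (b i)) • b i := ⟨_, rfl⟩
  have hsum : ∀ (s : Finset (Fin k)) (c : Fin k → F), (∀ i, c i ∈ F₀) → Rt F₀ P (∑ i ∈ s, c i • b i) := by
    intro s c hc
    classical
    induction s using Finset.induction_on with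
    | empty => exact ⟨0, fun i => F₀.zero_mem, by rw [Finset.sum_empty, Matrix.mulVec_zero]⟩
    | insert a s ha ih =>
      rw [Finset.sum_insert ha]
      exact ((hb a).smul (hc a)).add ih
  have hw'r : Rt F₀ P w' := by
    rw [hw']
    exact hw.sub (hsum _ _ fun i => F₀.div_mem (form_mem1 hform hw (hb i)) (form_mem1 hform (hb i) (hb i)))
  have hw'b : ∀ j, hermForm n F q w' (b j) = 0 := by
    intro j
    rw [hw', herm_sub_left, herm_sum_left, Finset.sum_eq_single j, herm_smul_left, div_mul_cancel₀ _ (hb0 j), sub_self]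
    · intro i _ hij
      rw [herm_smul_left, hbb i j hij, mul_zero]
    · intro h; exact absurd (Finset.mem_univ j) h
  have huw' : hermForm n F q u w' = hermForm n F q u w := by
    rw [hw', herm_sub_right hF, herm_sum_right hF, Finset.sum_eq_zero, sub_zero]
    intro i _
    rw [herm_smul_right, hub, mul_zero]
  set c := hermForm n F q u w with hc
  obtain ⟨u1, hu1⟩ : ∃ u1, u1 = (l * c⁻¹) • u := ⟨_, rfl⟩
  have hu1r : Rt F₀ P u1 := by
    rw [hu1]
    exact hu.smul (F₀.mul_mem hl (F₀.inv_mem (form_mem1 hform hu hw)))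
  have hu1b : ∀ j, hermForm n F q u1 (b j) = 0 := fun j => by rw [hu1, herm_smul_left, hub, mul_zero]
  have hu1w : hermForm n F q u1 w' = l := by
    rw [hu1, herm_smul_left, huw', mul_assoc, inv_mul_cancel₀ huw, mul_one]
  have hz : ∀ e, Rt F₀ P e → (∀ i, hermForm n F q e (b i) = 0) → hermForm n F q e e = 0 := by
    intro e he heb
    by_contra h
    obtain ⟨i, hi⟩ := hcon e he h
    exact hi (heb i)
  have h1 := hz _ hu1r hu1b
  have h2 := hz _ hw'r hw'b
  have h3 := hz _ (hu1r.add hw'r) (fun i => by rw [herm_add_left, hu1b, hw'b, add_zero])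
  rw [herm_add_left, herm_add_right hF, herm_add_right hF, h1, h2, herm_swap hF u1 w', hu1w] at h3
  apply hl0
  linear_combination h3

/-- the quadratic form in three variables over the fixed field is isotropic -/
theorem exists_three (F₀ : Subfield F) {a1 a2 a3 : F} (h1 : a1 ∈ F₀) (h2 : a2 ∈ F₀) (h3 : a3 ∈ F₀) (k1 : a1 ^ q = a1)
    (k2 : a2 ^ q = a2) (k3 : a3 ^ q = a3) (n1 : a1 ≠ 0) (n2 : a2 ≠ 0) :
    ∃ x y : F, x ∈ F₀ ∧ y ∈ F₀ ∧ x ^ q = x ∧ y ^ q = y ∧ a1 * x ^ 2 + a2 * y ^ 2 + a3 = 0 := by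
  let K : Subfield F := F₀ ⊓ RingHom.eqLocusField (conj hF : F →+* F) (RingHom.id F)
  have hK : ∀ a, a ∈ K ↔ a ∈ F₀ ∧ a ^ q = a := fun a => Iff.rfl
  by_cases hc : (2 : F) = 0
  · have hc' : (2 : K) = 0 := Subtype.ext hc
    have hch : ringChar K = 2 := by
      have : CharP K 2 := CharTwo.of_one_ne_zero_of_two_eq_zero one_ne_zero hc'
      exact (ringChar.eq K 2).symm ▸ rfl
    have : Fintype K := Fintype.ofFinite K
    obtain ⟨s, hs⟩ := FiniteField.isSquare_of_char_two hch (⟨-a3 / a1, (hK _).2 ⟨F₀.div_mem (F₀.neg_mem h3) h1, by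
      rw [div_pow, neg_pow_q hF, k3, k1]⟩⟩ : K)
    have hs' : -a3 / a1 = (s : F) * s := congrArg Subtype.val hs
    refine ⟨s, 0, ((hK _).1 s.2).1, F₀.zero_mem, ((hK _).1 s.2).2, zero_pow_q hF, ?_⟩
    rw [pow_two, ← hs']
    field_simp
    ring
  · have hc' : (2 : K) ≠ 0 := fun h => hc (congrArg Subtype.val h)
    obtain ⟨s, t, h⟩ := exists_two_sq hc' (a := (⟨a1, (hK _).2 ⟨h1, k1⟩⟩ : K)) (b := ⟨a2, (hK _).2 ⟨h2, k2⟩⟩)
      (fun h => n1 (congrArg Subtype.val h)) (fun h => n2 (congrArg Subtype.val h))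
      ⟨-a3, (hK _).2 ⟨F₀.neg_mem h3, by rw [neg_pow_q hF, k3]⟩⟩
    have h' : a1 * (s : F) ^ 2 + a2 * (t : F) ^ 2 = -a3 := congrArg Subtype.val h
    refine ⟨s, t, ((hK _).1 s.2).1, ((hK _).1 t.2).1, ((hK _).1 s.2).2, ((hK _).1 t.2).2, ?_⟩
    rw [h']
    ring

/-- **rational vectors for (a), (b)** -/
theorem exists_vwe (hn : 3 ≤ n) (hform : IsFormRationalStructure (hermForm n F q) F₀ 1 P)
    (hl : ∃ l : F, l ∈ F₀ ∧ l + l ^ q ≠ 0) :
    ∃ v w e : Fin n → F, Rt F₀ P v ∧ Rt F₀ P w ∧ Rt F₀ P e ∧ hermForm n F q v v = 0 ∧ hermForm n F q w w = 0 ∧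
      hermForm n F q v w = 1 ∧ hermForm n F q e v = 0 ∧ hermForm n F q e w = 0 ∧ hermForm n F q e e ≠ 0 := by
  obtain ⟨e1, r1, n1, -⟩ := exists_aniso hF hform hl (k := 0) (by omega) (fun i => i.elim0) (fun i => i.elim0)
    (fun i => i.elim0) (fun i => i.elim0)
  obtain ⟨e2, r2, n2, o2⟩ := exists_aniso hF hform hl (k := 1) (by omega) (fun _ => e1) (fun _ => r1)
    (fun _ => n1) (fun i j hij => absurd (Subsingleton.elim i j) hij)
  have o21 := o2 0
  have o12 := herm_eq_zero_swap hF o21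
  obtain ⟨e3, r3, n3, o3⟩ := exists_aniso hF hform hl (k := 2) (by omega) ![e1, e2] (by
      intro i; fin_cases i <;> assumption) (by intro i; fin_cases i <;> assumption) (by
      intro i j hij
      fin_cases i <;> fin_cases j
      · exact absurd rfl hij
      · exact o12
      · exact o21
      · exact absurd rfl hij)
  have o31 : hermForm n F q e3 e1 = 0 := o3 0
  have o32 : hermForm n F q e3 e2 = 0 := o3 1
  have o13 := herm_eq_zero_swap hF o31
  have o23 := herm_eq_zero_swap hF o32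
  have m1 := form_mem1 hform r1 r1
  have m2 := form_mem1 hform r2 r2
  have m3 := form_mem1 hform r3 r3
  have k1 := herm_self_pow hF e1
  have k2 := herm_self_pow hF e2
  have k3 := herm_self_pow hF e3
  set a1 := hermForm n F q e1 e1 with ha1
  set a2 := hermForm n F q e2 e2 with ha2
  set a3 := hermForm n F q e3 e3 with ha3
  obtain ⟨x, y, hx, hy, kx, ky, hxy⟩ := exists_three hF F₀ m1 m2 m3 k1 k2 k3 n1 n2
  obtain ⟨l, hl, hl0⟩ := hl
  have ki3 : (a3⁻¹) ^ q = a3⁻¹ := by rw [inv_pow, k3]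
  have kya : (y * a2) ^ q = y * a2 := by rw [mul_pow, ky, k2]
  have kxa : (x * a1) ^ q = x * a1 := by rw [mul_pow, kx, k1]
  set d := l + l ^ q with hd
  have kd : (d⁻¹) ^ q = d⁻¹ := by rw [inv_pow, hd, trace_pow_q hF]
  have hdm : l ^ q ∈ F₀ := F₀.pow_mem hl q
  set t := -(l * a3⁻¹ * d⁻¹) with ht
  have htq : t ^ q = -(l ^ q * a3⁻¹ * d⁻¹) := by rw [ht, neg_pow_q hF, mul_pow, mul_pow, ki3, kd]
  have htt : t + t ^ q = -a3⁻¹ := by
    rw [htq, ht]
    have : l * a3⁻¹ * d⁻¹ + l ^ q * a3⁻¹ * d⁻¹ = a3⁻¹ * (d * d⁻¹) := by rw [hd]; ring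
    rw [mul_inv_cancel₀ hl0, mul_one] at this
    linear_combination -this
  have hvr : Rt F₀ P (x • e1 + y • e2 + e3) := ((r1.smul hx).add (r2.smul hy)).add r3
  have herr : Rt F₀ P ((y * a2) • e1 - (x * a1) • e2) :=
    (r1.smul (F₀.mul_mem hy m2)).sub (r2.smul (F₀.mul_mem hx m1))
  set v := x • e1 + y • e2 + e3 with hv
  set e := (y * a2) • e1 - (x * a1) • e2 with he
  have fvv : hermForm n F q v v = 0 := by
    rw [hv]
    simp only [herm_add_left, herm_add_right hF, herm_smul_left, herm_smul_right, o12, o21, o13, o31, o23, o32, kx, ky,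
      ← ha1, ← ha2, ← ha3]
    linear_combination hxy
  have fev : hermForm n F q e v = 0 := by
    rw [hv, he]
    simp only [herm_add_left, herm_add_right hF, herm_smul_left, herm_smul_right, herm_sub_left, o12, o21, o13, o31, o23,
      o32, kx, ky, ← ha1, ← ha2, ← ha3]
    ring
  have fee : hermForm n F q e e = -(a1 * a2 * a3) := by
    rw [he]
    simp only [herm_smul_left, herm_smul_right, herm_sub_left, herm_sub_right hF, o12, o21, kya, kxa, ← ha1, ← ha2]
    linear_combination (a1 * a2) * hxy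
  have f3v : hermForm n F q e3 v = a3 := by
    rw [hv]
    simp only [herm_add_right hF, herm_smul_right, o31, o32, ← ha3]
    ring
  have fv3 : hermForm n F q v e3 = a3 := by
    rw [hv]
    simp only [herm_add_left, herm_smul_left, o13, o23, ← ha3]
    ring
  have fe3 : hermForm n F q e e3 = 0 := by
    rw [he]
    simp only [herm_sub_left, herm_smul_left, o13, o23]
    ring
  have hwr : Rt F₀ P (a3⁻¹ • e3 + t • v) := (r3.smul (F₀.inv_mem m3)).add (hvr.smul (F₀.neg_mem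
    (F₀.mul_mem (F₀.mul_mem hl (F₀.inv_mem m3)) (F₀.inv_mem (F₀.add_mem hl hdm)))))
  refine ⟨v, a3⁻¹ • e3 + t • v, e, hvr, hwr, herr, fvv, ?_, ?_, fev, ?_, ?_⟩
  · simp only [herm_add_left, herm_add_right hF, herm_smul_left, herm_smul_right, fvv, f3v, fv3, ki3, ← ha3]
    have : a3 * a3⁻¹ = 1 := mul_inv_cancel₀ n3
    linear_combination (a3 * a3⁻¹) * htt
  · simp only [herm_add_right hF, herm_smul_right, fvv, fv3, ki3]
    rw [mul_zero, add_zero, inv_mul_cancel₀ n3]
  · simp only [herm_add_right hF, herm_smul_right, fev, fe3]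
    ring
  · rw [fee]
    exact neg_ne_zero.2 (mul_ne_zero (mul_ne_zero n1 n2) n3)

/-- **rational vectors for (c)** -/
theorem exists_c (hn : 3 ≤ n) {ζ : F} (hζ : ζ ≠ 0) (hform : IsFormRationalStructure (hermForm n F q) F₀ ζ P)
    (hf0 : ∀ a ∈ F₀, a ^ q = a) :
    ∃ v w e : Fin n → F, Rt F₀ P v ∧ Rt F₀ P w ∧ Rt F₀ P e ∧ ζ * hermForm n F q v w = 1 ∧ e ≠ 0 ∧
      hermForm n F q e v = 0 ∧ hermForm n F q e w = 0 := by
  obtain ⟨v, hv, hv0, -⟩ := exists_perp (q := q) hζ hform (k := 0) (by omega) (fun i => i.elim0) (fun i => i.elim0)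
  obtain ⟨w0, hw0, hvw⟩ := exists_pair (P := P) (F₀ := F₀) hF hv0
  have hm := form_mem hform hv hw0
  have hw : Rt F₀ P ((ζ * hermForm n F q v w0)⁻¹ • w0) := hw0.smul (F₀.inv_mem hm)
  obtain ⟨e, he, he0, heb⟩ := exists_perp (q := q) hζ hform (k := 2) (by omega)
    ![v, (ζ * hermForm n F q v w0)⁻¹ • w0] (by intro i; fin_cases i <;> assumption)
  refine ⟨v, _, e, hv, hw, he, ?_, he0, heb 0, heb 1⟩
  rw [herm_smul_right, hf0 _ (F₀.inv_mem hm)]
  have : ζ * hermForm n F q v w0 ≠ 0 := mul_ne_zero hζ hvw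
  calc ζ * ((ζ * hermForm n F q v w0)⁻¹ * hermForm n F q v w0) =
      (ζ * hermForm n F q v w0)⁻¹ * (ζ * hermForm n F q v w0) := by ring
    _ = 1 := inv_mul_cancel₀ this

omit hF in
theorem E_rat {φ : F →+* F} (hφ : ∀ a, a ∈ F₀ ↔ φ a = a)
    (hform : IsFormRationalStructure (hermForm n F q) F₀ 1 P) {a b : Fin n → F} (ha : Rt F₀ P a) (hb : Rt F₀ P b) :
    PhiM φ P (E q a b) = E q a b := by
  have := PhiM_E hφ hform ha hb
  rwa [one_smul] at this

omit hF in
omit [Field F] [Fintype F] in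
/-- numbers: `|F₀| = t²`, `q = t^r` -/
theorem sq_of_odd {s q r : ℕ} (hr : Odd r) (h : q ^ 2 = s ^ r) (hs : 0 < s) : ∃ t, s = t ^ 2 := by
  obtain ⟨k, rfl⟩ := hr
  have h1 : (s ^ k) ^ 2 ∣ q ^ 2 := by
    rw [h, ← pow_mul]
    exact pow_dvd_pow _ (by omega)
  obtain ⟨t, rfl⟩ := (Nat.pow_dvd_pow_iff (by norm_num)).1 h1
  refine ⟨t, ?_⟩
  have h2 : 0 < s ^ (2 * k) := Nat.pow_pos hs
  have h3 : s ^ (2 * k) * t ^ 2 = s ^ (2 * k) * s := by
    rw [← pow_succ, ← h, mul_pow, ← pow_mul, mul_comm k 2]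
  exact (Nat.eq_of_mul_eq_mul_left h2 h3).symm

theorem two_ne (hq : Odd q) : (2 : F) ≠ 0 := by
  intro h2
  have : CharP F 2 := CharTwo.of_one_ne_zero_of_two_eq_zero one_ne_zero h2
  have h3 := FiniteField.even_card_of_char_two (F := F) (ringChar.eq F 2)
  rw [hF] at h3
  have h4 := (hq.pow (n := 2))
  rw [Nat.odd_iff] at h4
  omega

theorem two_eq (hq : ¬ Odd q) : (2 : F) = 0 := by
  have h1 : ringChar F = 2 := by
    rw [FiniteField.even_card_iff_char_two, hF]
    rw [Nat.not_odd_iff_even] at hq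
    exact Nat.even_iff.1 (hq.pow_of_ne_zero two_ne_zero)
  have h2 := ringChar.Nat.cast_ringChar (R := F)
  rw [h1] at h2
  exact_mod_cast h2

end Cfsg.Agent.H511.EP
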